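import Cfsg.Agent.H930.A7s.TwoB
import Cfsg.Agent.H825.A7x.Mat2

/-!
# `6.A₇`, `n = 12`, `p = 5`: the solution of helper825's equations (helper930)
-/

set_option autoImplicit false
set_option linter.unusedSectionVars false

namespace Cfsg.Agent.H930.A7s

open Matrix
open Cfsg.Agent.H890.A7 (ch2 ch2' IsSc coeff_zero exists_uv)
open Cfsg.Agent.H825.A7x (Eqs Irr)

section gen

variable {F : Type*} [Field F] {R : Type*} [Ring R] [Algebra F R] {ω L : F} {X Z N p₀ p₁ p₂ q₀ q₁ q₂ : R}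

theorem mul_nn (h5 : (5 : F) = 0) (h : (2 : F) • (N * N) = 1) : N * N = (3 : F) • 1 := by
  rw [← h, smul_smul]
  have : (3 * 2 : F) = 1 := by linear_combination h5
  rw [this, one_smul]

theorem md_of_eqs (h : Eqs ω L X Z N p₀ p₁ p₂ q₀ q₁ q₂) (h5 : (5 : F) = 0) (hL : L = 1) :
    MD ω (2 * ω + 1) X (-Z) ((2 * ω + 1) • N) := by
  subst hL
  obtain ⟨s, hs⟩ : ∃ s, s = 2 * ω + 1 := ⟨_, rfl⟩
  rw [← hs]
  have hω := h.hω
  have s2 : s * s = 2 := by
    rw [hs]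
    linear_combination 4 * hω - h5
  have hNN := mul_nn h5 h.NN
  have f : ∀ (a : F) (x : R), (5 * a) • x = 0 := fun a x => by rw [h5, zero_mul, zero_smul]
  -- `24 q₀² = 1 + 2 q₀`
  have hq0 : (24 : F) • (q₀ * q₀) = 1 + (2 : F) • q₀ := by
    have : (24 : F) • (q₀ * q₀) = ((3 : F) • (p₀ * p₀) + (12 : F) • (q₀ * q₀)) -
      ((3 : F) • (p₀ * p₀) - (12 : F) • (q₀ * q₀)) := by module
    rw [this, h.s0, h.e00]
    module
  have hq : q₀ * q₀ = (-1 : F) • 1 - (2 : F) • q₀ := by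
    have : q₀ * q₀ = (5 * 5 : F) • (q₀ * q₀) - (24 : F) • (q₀ * q₀) := by module
    rw [this, f, hq0]
    module
  have hT0 : (-2 : F) • (s • (X * X) + X * (s • N) * (-Z) - -Z * (s • N) * X) = (-2 * s) • q₀ := by
    rw [h.hq0]
    simp only [mul_smul_comm, smul_mul_assoc, mul_neg, neg_mul]
    module
  have hT1 : (-2 : F) • (s • (X * X) + ω • (X * (s • N) * (-Z)) - ω ^ 2 • (-Z * (s • N) * X)) = (-2 * s) • q₂ := by
    rw [h.hq2]
    simp only [mul_smul_comm, smul_mul_assoc, mul_neg, neg_mul]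
    module
  have hT2 : (-2 : F) • (s • (X * X) + ω ^ 2 • (X * (s • N) * (-Z)) - ω • (-Z * (s • N) * X)) = (-2 * s) • q₁ := by
    rw [h.hq1]
    simp only [mul_smul_comm, smul_mul_assoc, mul_neg, neg_mul]
    module
  have hP0 : s • (-Z * X - X * -Z) + (2 : F) • (X * (s • N) * X) + (2 : F) • (-Z * (s • N) * -Z) = (-s) • p₀ := by
    rw [h.hp0]
    simp only [mul_smul_comm, smul_mul_assoc, mul_neg, neg_mul]
    module
  have hP1 : s • (-Z * X - X * -Z) + (2 * ω ^ 2) • (X * (s • N) * X) + (2 * ω) • (-Z * (s • N) * -Z) = (-s) • p₁ := by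
    rw [h.hp1]
    simp only [mul_smul_comm, smul_mul_assoc, mul_neg, neg_mul]
    module
  have hP2 : s • (-Z * X - X * -Z) + (2 * ω) • (X * (s • N) * X) + (2 * ω ^ 2) • (-Z * (s • N) * -Z) = (-s) • p₂ := by
    rw [h.hp2]
    simp only [mul_smul_comm, smul_mul_assoc, mul_neg, neg_mul]
    module
  refine ⟨h5, hω, hs, ?_, ?_, ?_, ?_, ?_, ?_, ?_, ?_⟩
  · rw [smul_mul_smul_comm, s2, h.NN]
  · rw [h.XX, neg_mul_neg]
  · have h1 : (-2 : F) • (1 : R) = (-2 : F) • (3 : F) • (X * Z + Z * X) := by rw [h.XZ]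
    have h2 : X * -Z + -Z * X = (-1 : F) • (X * Z + Z * X) := by
      rw [mul_neg, neg_mul]
      module
    rw [h1, h2, smul_smul]
    congr 1
    linear_combination h5
  · rintro _ rfl
    rw [hT0, smul_mul_smul_comm, hq]
    have : (-2 * s * (-2 * s)) • ((-1 : F) • (1 : R) - (2 : F) • q₀) + s • (-2 * s) • q₀ + (3 : F) • 1 =
        (3 - 4 * (s * s)) • (1 : R) - (10 * (s * s)) • q₀ := by module
    rw [this, s2, show (3 - 4 * 2 : F) = 0 by linear_combination -h5, show (10 * 2 : F) = 0 by linear_combination 4 * h5]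
    simp
  · rintro _ _ rfl rfl
    rw [hT0, hP0, smul_mul_smul_comm, smul_mul_smul_comm]
    have : (-s * -s) • (p₀ * p₀) + (-2 * s * (-2 * s)) • (q₀ * q₀) =
        (s * s) • (p₀ * p₀) + (4 * (s * s)) • (q₀ * q₀) := by module
    rw [this, s2]
    have h1 := h.s0
    have : (2 : F) • (p₀ * p₀) + (4 * 2 : F) • (q₀ * q₀) = (5 * 1 : F) • (p₀ * p₀) + (5 * 4 : F) • (q₀ * q₀) -
      ((3 : F) • (p₀ * p₀) + (12 : F) • (q₀ * q₀)) := by module
    rw [this, h1, f, f]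
    simp
  · rintro _ _ _ rfl rfl rfl
    rw [hT0, hP0, hP1]
    -- `p₁ N q₀ = p₁ N + N p₀`
    have e10 : p₁ * N * q₀ = p₁ * N + N * p₀ := by
      have h1 := h.e10
      rw [one_smul] at h1
      rw [← h1]
      have : (6 : F) • (p₁ * N * q₀) = p₁ * N * q₀ + (5 * 1 : F) • (p₁ * N * q₀) := by module
      rw [this, f, add_zero]
    -- `p₁ N = N p₀ (q₀ + 3)`
    have h2 : p₁ * N = N * p₀ * (q₀ + (3 : F) • 1) := by
      have h3 : (p₁ * N * (q₀ - 1)) * (q₀ + (3 : F) • 1) = N * p₀ * (q₀ + (3 : F) • 1) := by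
        rw [mul_sub, e10, mul_one, add_sub_cancel_left]
      rw [← h3]
      have h4 : (q₀ - 1) * (q₀ + (3 : F) • 1) = 1 := by
        have : (q₀ - 1) * (q₀ + (3 : F) • 1) = q₀ * q₀ + (2 : F) • q₀ - (3 : F) • 1 := by
          simp only [sub_mul, mul_add, mul_smul_comm, mul_one, one_mul]
          module
        rw [this, hq]
        have : (-1 : F) • (1 : R) - (2 : F) • q₀ + (2 : F) • q₀ - (3 : F) • 1 = 1 - (5 * 1 : F) • 1 := by module
        rw [this, f, sub_zero]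
      rw [mul_assoc, h4, mul_one]
    have h5' : N * p₁ * N = (3 : F) • (p₀ * q₀) + (9 : F) • p₀ := by
      rw [mul_assoc, h2, ← mul_assoc, ← mul_assoc, hNN, smul_mul_assoc, one_mul, smul_mul_assoc, mul_add, mul_smul_comm,
        mul_one]
      module
    have h6 : (s • N) * ((-s) • p₁) * (s • N) = (-s * (s * s)) • (N * p₁ * N) := by
      simp only [mul_smul_comm, smul_mul_assoc]
      module
    rw [h6, h5', smul_mul_smul_comm, s2]
    have h7 : (-s * 2) • ((3 : F) • (p₀ * q₀) + (9 : F) • p₀) - (s • (-s * (-2 * s)) • (p₀ * q₀) + (3 : F) • (-s) • p₀) =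
      (5 * (-2 * s)) • (p₀ * q₀) + (4 * s - 2 * s * (s * s)) • (p₀ * q₀) + (5 * (-3 * s)) • p₀ := by module
    rw [f, f, zero_add, add_zero, s2, show 4 * s - 2 * s * 2 = 0 by ring, zero_smul] at h7
    exact sub_eq_zero.1 h7
  · rintro _ _ _ rfl rfl rfl
    rw [hP1, hT1, hT2, smul_mul_smul_comm, smul_mul_smul_comm]
    have : (-s * -s) • (p₁ * p₁) + (-2 * s * (-2 * s)) • (q₁ * q₂) =
        (s * s) • (p₁ * p₁) + (4 * (s * s)) • (q₁ * q₂) := by module
    rw [this, s2]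
    have h1 := h.s1
    have : (2 : F) • (p₁ * p₁) + (4 * 2 : F) • (q₁ * q₂) = (5 * 1 : F) • (p₁ * p₁) + (5 * 4 : F) • (q₁ * q₂) -
      ((3 : F) • (p₁ * p₁) + (12 : F) • (q₁ * q₂)) := by module
    rw [this, h1, f, f]
    simp
  · rintro _ rfl
    rw [hP2]
    have h1 := h.s2
    have h2 := h.e22
    rw [mul_one] at h2
    have h3 : (-2 : F) • (p₂ * N + N * p₂) = -((6 : F) • (p₂ * p₂) - 1) := by
      have : (-2 : F) • (p₂ * N + N * p₂) = -((2 : F) • (p₂ * N + N * p₂)) := by module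
      rw [this, ← h2, ← h1]
      module
    have h4 : (s • N) * ((-s) • p₂) + ((-s) • p₂) * (s • N) = (-(s * s)) • (p₂ * N + N * p₂) := by
      simp only [mul_smul_comm, smul_mul_assoc]
      module
    rw [h4, s2, h3, smul_mul_smul_comm]
    have h5' : (2 : F) • (-s * -s) • (p₂ * p₂) + 1 - -((6 : F) • (p₂ * p₂) - 1) =
      (5 * 2 : F) • (p₂ * p₂) + (2 * (s * s) - 4) • (p₂ * p₂) := by module
    rw [f, s2, show (2 * 2 - 4 : F) = 0 by ring, zero_smul, add_zero] at h5'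
    exact sub_eq_zero.1 h5'

end gen

variable {F : Type*} [Field F] {ω L : F} {X Z N p₀ p₁ p₂ q₀ q₁ q₂ : Matrix (Fin 2) (Fin 2) F}

local notation "R2" => Matrix (Fin 2) (Fin 2) F

/-- **The solution of the equations in characteristic five**, `L = 1`. -/
theorem eqs_normal (h : Eqs ω L X Z N p₀ p₁ p₂ q₀ q₁ q₂) (hI : Irr X Z N) (h5 : (5 : F) = 0) (hL : L = 1) :
    ∃ (S : GL (Fin 2) F) (ε : F), (ε = 1 ∨ ε = -1) ∧ X * (S : R2) = (S : R2) * (ε • Xo) ∧
      Z * (S : R2) = (S : R2) * ((-ε) • Zo ω) ∧ N * (S : R2) = (S : R2) * ((3 * (2 * ω + 1)) • No ω) := by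
  have h1 := md_of_eqs h h5 hL
  obtain ⟨S, ε, hε, hX, hZ, hN⟩ := h1.normal (by
    rintro ⟨v, hv, hX, ⟨a, ha⟩, b, hb⟩
    refine hI.irr v hv hX ⟨-a, ?_⟩ ⟨3 * (2 * ω + 1) * b, ?_⟩
    · rw [neg_smul, ← ha, Matrix.neg_mulVec, neg_neg]
    · rw [Matrix.smul_mulVec] at hb
      rw [mul_smul, ← hb, smul_smul]
      have h2 : (3 * (2 * ω + 1)) * (2 * ω + 1) = 1 := by linear_combination 12 * h.hω - 2 * h5
      rw [h2, one_smul])
  refine ⟨S, ε, hε, hX, ?_, ?_⟩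
  · have h2 : Z = -(-Z) := (neg_neg Z).symm
    rw [h2, neg_mul, hZ, neg_smul, mul_neg]
  · have h2 : (3 * (2 * ω + 1)) * (2 * ω + 1) = 1 := by linear_combination 12 * h.hω - 2 * h5
    have h3 : N = (3 * (2 * ω + 1)) • ((2 * ω + 1) • N) := by rw [smul_smul, h2, one_smul]
    rw [h3, smul_mul_assoc, hN, mul_smul_comm]

end Cfsg.Agent.H930.A7s
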