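import Cfsg.Agent.H890.A7.SixRel

/-!
# `6.A₇` in dimension twelve, characteristic five: the two-dimensional multiplicity space (helper930)

`V = F³ ⊗ F² ⊗ M`, `dim M = 2`; three operators `X, Z, N` on `M`.
-/

set_option autoImplicit false
set_option linter.unusedSectionVars false

namespace Cfsg.Agent.H930.A7s

open Matrix
open Cfsg.Agent.H890.A7 (ch2 ch2' IsSc coeff_zero exists_uv)

variable {F : Type*} [Field F]

local notation "R2" => Matrix (Fin 2) (Fin 2) F

/-- the data on `M` (characteristic five, `l = -1`), `s = 2ω + 1`, `s² = 2` -/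
structure MD {R : Type*} [Ring R] [Algebra F R] (ω s : F) (X Z N : R) : Prop where
  h5 : (5 : F) = 0
  hω : ω ^ 2 + ω + 1 = 0
  hs : s = 2 * ω + 1
  nn : N * N = 1
  xx : X * X = Z * Z
  xz : X * Z + Z * X = (-2 : F) • 1
  /-- `T₀² + s T₀ + 3 = 0` -/
  e0 : ∀ T₀ : R, T₀ = (-2 : F) • (s • (X * X) + X * N * Z - Z * N * X) → T₀ * T₀ + s • T₀ + (3 : F) • 1 = 0
  e0' : ∀ T₀ P₀ : R, T₀ = (-2 : F) • (s • (X * X) + X * N * Z - Z * N * X) →
    P₀ = s • (Z * X - X * Z) + (2 : F) • (X * N * X) + (2 : F) • (Z * N * Z) → P₀ * P₀ + T₀ * T₀ = -1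
  e1 : ∀ T₀ P₀ P₁ : R, T₀ = (-2 : F) • (s • (X * X) + X * N * Z - Z * N * X) →
    P₀ = s • (Z * X - X * Z) + (2 : F) • (X * N * X) + (2 : F) • (Z * N * Z) →
    P₁ = s • (Z * X - X * Z) + (2 * ω ^ 2) • (X * N * X) + (2 * ω) • (Z * N * Z) →
    N * P₁ * N = s • (P₀ * T₀) + (3 : F) • P₀
  e3 : ∀ P₁ T₁ T₂ : R, P₁ = s • (Z * X - X * Z) + (2 * ω ^ 2) • (X * N * X) + (2 * ω) • (Z * N * Z) →
    T₁ = (-2 : F) • (s • (X * X) + ω • (X * N * Z) - ω ^ 2 • (Z * N * X)) →
    T₂ = (-2 : F) • (s • (X * X) + ω ^ 2 • (X * N * Z) - ω • (Z * N * X)) →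
    P₁ * P₁ + T₂ * T₁ = -1
  e5 : ∀ P₂ : R, P₂ = s • (Z * X - X * Z) + (2 * ω) • (X * N * X) + (2 * ω ^ 2) • (Z * N * Z) →
    (2 : F) • (P₂ * P₂) + 1 = N * P₂ + P₂ * N

/-- transport along an algebra homomorphism -/
theorem MD.map {R R' : Type*} [Ring R] [Algebra F R] [Ring R'] [Algebra F R'] (φ : R →ₐ[F] R') {ω s : F} {X Z N : R}
    (h : MD ω s X Z N) : MD ω s (φ X) (φ Z) (φ N) := by
  refine ⟨h.h5, h.hω, h.hs, ?_, ?_, ?_, ?_, ?_, ?_, ?_, ?_⟩
  · rw [← map_mul, h.nn, map_one]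
  · rw [← map_mul, h.xx, map_mul]
  · rw [← map_mul, ← map_mul, ← map_add, h.xz, map_smul, map_one]
  · rintro _ rfl
    have := congrArg φ (h.e0 _ rfl)
    simpa only [map_mul, map_add, map_sub, map_smul, map_one, map_zero, map_neg] using this
  · rintro _ _ rfl rfl
    have := congrArg φ (h.e0' _ _ rfl rfl)
    simpa only [map_mul, map_add, map_sub, map_smul, map_one, map_zero, map_neg] using this
  · rintro _ _ _ rfl rfl rfl
    have := congrArg φ (h.e1 _ _ _ rfl rfl rfl)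
    simpa only [map_mul, map_add, map_sub, map_smul, map_one, map_zero, map_neg] using this
  · rintro _ _ _ rfl rfl rfl
    have := congrArg φ (h.e3 _ _ _ rfl rfl rfl)
    simpa only [map_mul, map_add, map_sub, map_smul, map_one, map_zero, map_neg] using this
  · rintro _ rfl
    have := congrArg φ (h.e5 _ rfl)
    simpa only [map_mul, map_add, map_sub, map_smul, map_one, map_zero, map_neg] using this

variable {ω s : F} {X Z N : Matrix (Fin 2) (Fin 2) F}

theorem MD.s2 (h : MD ω s X Z N) : s * s = 2 := by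
  rw [h.hs]
  linear_combination 4 * h.hω - h.h5

theorem MD.sne (h : MD ω s X Z N) : s ≠ 0 := by
  intro h0
  have h1 := h.s2
  rw [h0, zero_mul] at h1
  have : (1 : F) = 0 := by linear_combination h.h5 + 2 * h1
  exact one_ne_zero this

theorem MD.ne (h : MD ω s X Z N) : (2 : F) ≠ 0 := by
  intro h0
  have : (1 : F) = 0 := by linear_combination h.h5 - 2 * h0
  exact one_ne_zero this

theorem MD.ne3 (h : MD ω s X Z N) : (3 : F) ≠ 0 := by
  intro h0
  have : (1 : F) = 0 := by linear_combination 2 * h0 - h.h5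
  exact one_ne_zero this

/-- a common eigenvector -/
def Cev (X Z N : R2) : Prop := ∃ v : Fin 2 → F, v ≠ 0 ∧ (∃ a : F, X *ᵥ v = a • v) ∧ (∃ a : F, Z *ᵥ v = a • v) ∧
  ∃ a : F, N *ᵥ v = a • v

theorem eq_zero_of_mulVec {A : R2} (h : ∀ v, A *ᵥ v = 0) : A = 0 := by
  ext i j
  have := congrFun (h (Pi.single j 1)) i
  rwa [Matrix.mulVec_single_one] at this

/-- an eigenvector from a split quadratic equation -/
theorem exists_ev {A : R2} {α β : F} (h : (A - α • 1) * (A - β • 1) = 0) :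
    ∃ v : Fin 2 → F, v ≠ 0 ∧ ∃ c : F, A *ᵥ v = c • v := by
  by_cases hA : A - β • 1 = 0
  · refine ⟨Pi.single 0 1, ?_, β, ?_⟩
    · intro h0
      have := congrFun h0 0
      simp at this
    · have : A = β • 1 := sub_eq_zero.1 hA
      rw [this, Matrix.smul_mulVec, Matrix.one_mulVec]
  · obtain ⟨w, hw⟩ : ∃ w, (A - β • 1) *ᵥ w ≠ 0 := by
      by_contra hcon
      push Not at hcon
      exact hA (eq_zero_of_mulVec hcon)
    refine ⟨_, hw, α, ?_⟩
    have h1 : (A - α • 1) *ᵥ ((A - β • 1) *ᵥ w) = 0 := by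
      rw [Matrix.mulVec_mulVec, h, Matrix.zero_mulVec]
    rw [Matrix.sub_mulVec, Matrix.smul_mulVec, Matrix.one_mulVec] at h1
    exact sub_eq_zero.1 h1

/-- commuting matrices with eigenvectors have a common eigenvector -/
theorem common_ev {A B : R2} (hAB : B * A = A * B) (hA : ∃ v : Fin 2 → F, v ≠ 0 ∧ ∃ c : F, A *ᵥ v = c • v)
    (hB : ∃ v : Fin 2 → F, v ≠ 0 ∧ ∃ c : F, B *ᵥ v = c • v) :
    ∃ v : Fin 2 → F, v ≠ 0 ∧ (∃ c : F, A *ᵥ v = c • v) ∧ ∃ c : F, B *ᵥ v = c • v := by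
  by_cases hs : IsSc A
  · obtain ⟨c, rfl⟩ := hs
    obtain ⟨v, hv, d, hd⟩ := hB
    exact ⟨v, hv, ⟨c, by rw [Matrix.smul_mulVec, Matrix.one_mulVec]⟩, d, hd⟩
  · obtain ⟨u, w, huw⟩ := exists_uv hs hAB
    obtain ⟨v, hv, c, hc⟩ := hA
    refine ⟨v, hv, ⟨c, hc⟩, u + w * c, ?_⟩
    rw [huw, Matrix.add_mulVec, Matrix.smul_mulVec, Matrix.smul_mulVec, Matrix.one_mulVec, hc]
    module

/-- a square-zero nonzero matrix: what anticommutes with it preserves the kernel -/
theorem ker_line {K : R2} (hK : K * K = 0) (hK0 : K ≠ 0) : ∃ v : Fin 2 → F, v ≠ 0 ∧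
    ∀ A : R2, A * K = -(K * A) → ∃ c : F, A *ᵥ v = c • v := by
  obtain ⟨w, hw⟩ : ∃ w, K *ᵥ w ≠ 0 := by
    by_contra hcon
    push Not at hcon
    exact hK0 (eq_zero_of_mulVec hcon)
  obtain ⟨v, hv⟩ : ∃ v, v = K *ᵥ w := ⟨_, rfl⟩
  rw [← hv] at hw
  have hKv : K *ᵥ v = 0 := by rw [hv, Matrix.mulVec_mulVec, hK, Matrix.zero_mulVec]
  refine ⟨v, hw, fun A hA => ?_⟩
  have h1 : K *ᵥ (A *ᵥ v) = 0 := by
    rw [Matrix.mulVec_mulVec]
    have : K * A = -(A * K) := by rw [hA, neg_neg]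
    rw [this, Matrix.neg_mulVec, ← Matrix.mulVec_mulVec, hKv, Matrix.mulVec_zero, neg_zero]
  -- the kernel is a line
  by_contra hcon
  push Not at hcon
  apply hK0
  have hli : LinearIndependent F ![v, A *ᵥ v] := by
    rw [LinearIndependent.pair_iff]
    intro a b hab
    by_cases hb : b = 0
    · rw [hb, zero_smul, add_zero] at hab
      exact ⟨(smul_eq_zero.1 hab).resolve_right hw, hb⟩
    · exfalso
      apply hcon (-(b⁻¹ * a))
      have : b⁻¹ • (a • v + b • A *ᵥ v) = 0 := by rw [hab, smul_zero]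
      rw [smul_add, smul_smul, smul_smul, inv_mul_cancel₀ hb, one_smul] at this
      rw [neg_smul]
      exact eq_neg_of_add_eq_zero_right this
  let b := basisOfLinearIndependentOfCardEqFinrank hli (by simp)
  have hb0 : b 0 = v := by simp [b]
  have hb1 : b 1 = A *ᵥ v := by simp [b]
  have h2 : K.mulVecLin = 0 := by
    apply b.ext
    intro i
    fin_cases i
    · show K *ᵥ (b 0) = 0
      rw [hb0, hKv]
    · show K *ᵥ (b 1) = 0
      rw [hb1, h1]
  apply eq_zero_of_mulVec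
  intro v
  have := congrArg (fun f => f v) h2
  exact this

theorem tr_sq_zero {A : R2} (h : A * A = 0) : A.trace = 0 := by
  have h1 := ch2 A
  rw [h] at h1
  by_cases hs : IsSc A
  · obtain ⟨c, rfl⟩ := hs
    have h2 := congrFun (congrFun h 0) 0
    simp at h2
    rw [h2]
    simp
  · have h3 : A.trace • A + (-A.det) • (1 : R2) = 0 := by rw [h1]; module
    exact (coeff_zero hs h3).1

/-- **Case `X Z = Z X`.** -/
theorem MD.cev_of_comm (h : MD ω s X Z N) (hc : Z * X = X * Z) : Cev X Z N := by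
  have h5 := h.h5
  have s2 := h.s2
  have h2 := h.ne
  have hX : X * Z = (-1 : F) • 1 := by
    have h1 := h.xz
    rw [hc] at h1
    have h3 : (2 : F) • (X * Z) = (2 : F) • ((-1 : F) • (1 : R2)) := by
      rw [two_smul, h1, smul_smul]
      congr 1
      ring
    exact smul_right_injective _ h2 h3
  have hZX : Z * X = (-1 : F) • 1 := by rw [hc, hX]
  obtain ⟨Y, hY⟩ : ∃ Y, Y = X * X := ⟨_, rfl⟩
  have hYY : Y * Y = 1 := by
    have : Y * Y = (X * Z) * (X * Z) := by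
      calc Y * Y = X * (X * (X * X)) := by rw [hY]; simp only [mul_assoc]
        _ = X * (X * (Z * Z)) := by rw [h.xx]
        _ = X * ((X * Z) * Z) := by simp only [mul_assoc]
        _ = X * ((Z * X) * Z) := by rw [hc]
        _ = (X * Z) * (X * Z) := by simp only [mul_assoc]
    rw [this, hX, smul_mul_smul_comm, mul_one]
    norm_num
  -- the trace of `Y`
  have hT := h.e0 _ rfl
  obtain ⟨T₀, hT₀⟩ : ∃ T₀, T₀ = (-2 : F) • (s • (X * X) + X * N * Z - Z * N * X) := ⟨_, rfl⟩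
  rw [← hT₀] at hT
  have htr : (T₀ + (3 * s) • 1).trace = 0 := by
    apply tr_sq_zero
    have : (T₀ + (3 * s) • (1 : R2)) * (T₀ + (3 * s) • 1) = (T₀ * T₀ + s • T₀ + (3 : F) • 1) + (5 * s) • T₀ +
        (9 * (s * s) - 3) • (1 : R2) := by
      simp only [add_mul, mul_add, smul_mul_assoc, mul_smul_comm, one_mul, mul_one]
      module
    rw [this, hT, s2, h5]
    rw [show (9 * 2 - 3 : F) = 5 * 3 by norm_num, h5]
    simp
  have htrY : Y.trace = 3 := by
    rw [hT₀, Matrix.trace_add, Matrix.trace_smul, Matrix.trace_smul, Matrix.trace_sub, Matrix.trace_add,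
      Matrix.trace_smul, Matrix.trace_one, Fintype.card_fin] at htr
    have e1 : (X * N * Z).trace = -N.trace := by
      rw [Matrix.trace_mul_cycle, hZX, smul_mul_assoc, one_mul, Matrix.trace_smul]
      simp
    have e2 : (Z * N * X).trace = -N.trace := by
      rw [Matrix.trace_mul_cycle, hX, smul_mul_assoc, one_mul, Matrix.trace_smul]
      simp
    rw [e1, e2, ← hY] at htr
    simp only [smul_eq_mul] at htr
    have h3 : s * (Y.trace - 3) = 0 := by
      push_cast at htr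
      linear_combination 2 * htr + (s * Y.trace - 3 * s) * h5
    exact sub_eq_zero.1 ((mul_eq_zero.1 h3).resolve_left h.sne)
  have hYs : Y = (-1 : F) • 1 := by
    have h3 := ch2 Y
    rw [hYY, htrY] at h3
    obtain ⟨d, hd⟩ : ∃ d, d = Y.det := ⟨_, rfl⟩
    rw [← hd] at h3
    have h4 : Y = (2 * (1 + d)) • 1 := by
      have h5' : (2 : F) • ((3 : F) • Y) = (2 * (1 + d)) • (1 : R2) := by
        have : (3 : F) • Y = (1 + d) • (1 : R2) := by
          rw [add_smul, one_smul, ← sub_eq_iff_eq_add]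
          exact h3.symm
        rw [this, smul_smul]
      have h6 : (2 : F) • ((3 : F) • Y) = Y + (5 : F) • Y := by module
      rw [h6, h5, zero_smul, add_zero] at h5'
      exact h5'
    have h5'' : 2 * (2 * (1 + d)) = 3 := by
      rw [h4, Matrix.trace_smul, Matrix.trace_one, Fintype.card_fin, smul_eq_mul] at htrY
      push_cast at htrY
      linear_combination htrY
    rw [h4]
    congr 1
    linear_combination 3 * h5'' - 2 * (1 + d) * h5 + 2 * h5
  rw [hY] at hYs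
  have hZ : Z = X := by
    have h3 : X * (X * Z) = X * (X * X) := by rw [hX, hYs]
    rw [← mul_assoc, ← mul_assoc, hYs, smul_mul_assoc, smul_mul_assoc, one_mul, one_mul] at h3
    exact smul_right_injective _ (by norm_num : (-1 : F) ≠ 0) h3
  subst hZ
  obtain ⟨J, hJ⟩ : ∃ J, J = Z * N * Z := ⟨_, rfl⟩
  have hJJ : J * J = 1 := by
    calc J * J = Z * N * (Z * Z) * N * Z := by rw [hJ]; simp only [mul_assoc]
      _ = (-1 : F) • (Z * (N * N) * Z) := by
        rw [hYs, mul_smul_comm, mul_one, smul_mul_assoc, smul_mul_assoc]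
        simp only [mul_assoc]
      _ = 1 := by
        rw [h.nn, mul_one, hYs, smul_smul]
        norm_num
  have hT2 : T₀ = (2 * s) • 1 := by
    rw [hT₀, add_sub_cancel_right, hYs, smul_smul, smul_smul]
    congr 1
    ring
  have hω := h.hω
  have e1 := h.e1 T₀ ((4 : F) • J) ((-2 : F) • J) hT₀ (by rw [sub_self, smul_zero, zero_add, ← hJ]; module)
    (by
      rw [sub_self, smul_zero, zero_add, ← hJ, ← add_smul]
      congr 1
      linear_combination -2 * hω)
  have e5 := h.e5 ((-2 : F) • J) (by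
      rw [sub_self, smul_zero, zero_add, ← hJ, ← add_smul]
      congr 1
      linear_combination -2 * hω)
  -- `N J N = J`
  have hNJ : N * J = J * N := by
    have h3 : N * J * N = J := by
      rw [hT2] at e1
      have h4 : (-2 : F) • (N * J * N) = (-2 : F) • J := by
        calc (-2 : F) • (N * J * N) = N * ((-2 : F) • J) * N := by
              rw [mul_smul_comm, smul_mul_assoc]
          _ = s • ((4 : F) • J * (2 * s) • 1) + (3 : F) • (4 : F) • J := e1
          _ = (8 * (s * s) + 12) • J := by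
              rw [smul_mul_smul_comm, mul_one]
              module
          _ = (-2 : F) • J := by
              rw [s2]
              congr 1
              linear_combination 6 * h5
      exact smul_right_injective _ (neg_ne_zero.2 h2) h4
    calc N * J = N * J * (N * N) := by rw [h.nn, mul_one]
      _ = N * J * N * N := by simp only [mul_assoc]
      _ = J * N := by rw [h3]
  have hNJ1 : N * J = (-1 : F) • 1 := by
    rw [smul_mul_smul_comm, hJJ, mul_smul_comm, smul_mul_assoc, ← hNJ] at e5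
    have h3 : (2 : F) • ((-2 * -2 : F) • (1 : R2)) + 1 = (9 : F) • 1 := by module
    rw [h3] at e5
    have h4 : (9 : F) • (1 : R2) = (-4 : F) • (N * J) := by rw [e5]; module
    have h6 : N * J = (9 : F) • (1 : R2) + (5 : F) • (N * J) := by
      rw [h4]
      module
    rw [h6, h5, zero_smul, add_zero]
    congr 1
    linear_combination 2 * h5
  have hJN : J = -N := by
    calc J = N * N * J := by rw [h.nn, one_mul]
      _ = N * (N * J) := mul_assoc _ _ _
      _ = -N := by rw [hNJ1, mul_smul_comm, mul_one]; simp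
  have hcomm : N * Z = Z * N := by
    rw [hJ] at hJN
    have h3 : Z * (Z * N * Z) = Z * (-N) := by rw [hJN]
    have h4 : Z * (Z * N * Z) = -(N * Z) := by
      rw [← mul_assoc, ← mul_assoc, hYs, smul_mul_assoc, smul_mul_assoc, one_mul]
      simp
    rw [h4, mul_neg, neg_inj] at h3
    exact h3
  obtain ⟨v, hv, ⟨c, hc⟩, d, hd⟩ := common_ev hcomm
    (exists_ev (A := Z) (α := 2) (β := -2) (by
      have : (Z - (2 : F) • (1 : R2)) * (Z - (-2 : F) • 1) = Z * Z - (4 : F) • 1 := by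
        simp only [sub_mul, mul_sub, smul_mul_assoc, mul_smul_comm, one_mul, mul_one]
        module
      rw [this, hYs, ← sub_smul, show (-1 - 4 : F) = 0 by linear_combination -h5, zero_smul]))
    (exists_ev (A := N) (α := 1) (β := -1) (by
      have : (N - (1 : F) • (1 : R2)) * (N - (-1 : F) • 1) = N * N - 1 := by
        simp only [sub_mul, mul_sub, smul_mul_assoc, mul_smul_comm, one_mul, mul_one]
        module
      rw [this, h.nn, sub_self]))
  exact ⟨v, hv, ⟨c, hc⟩, ⟨c, hc⟩, d, hd⟩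

/-- `ABC - CBA = tr(ABC)` for traceless matrices -/
theorem anti3 {A B C : R2} (hA : A.trace = 0) (hB : B.trace = 0) (hC : C.trace = 0) :
    A * B * C - C * B * A = (A * B * C).trace • 1 := by
  rw [Matrix.trace_fin_two] at hA hB hC
  rw [Matrix.trace_fin_two]
  have eA : A 1 1 = -A 0 0 := eq_neg_of_add_eq_zero_right hA
  have eB : B 1 1 = -B 0 0 := eq_neg_of_add_eq_zero_right hB
  have eC : C 1 1 = -C 0 0 := eq_neg_of_add_eq_zero_right hC
  ext i j
  fin_cases i <;> fin_cases j <;> simp [Matrix.mul_apply, Fin.sum_univ_two, eA, eB, eC] <;> ring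

theorem traceless {A : R2} (hs : ¬ IsSc A) {c : F} (h : A * A = c • 1) : A.trace = 0 ∧ A.det = -c := by
  have h1 := ch2 A
  rw [h] at h1
  have h3 : A.trace • A + (-A.det - c) • (1 : R2) = 0 := by
    have : A.trace • A + (-A.det - c) • (1 : R2) = (A.trace • A - A.det • 1) - c • 1 := by module
    rw [this, h1, sub_self]
  obtain ⟨h4, h5⟩ := coeff_zero hs h3
  exact ⟨h4, by linear_combination -h5⟩

/-- The situation `X Z ≠ Z X`. -/
structure NC (ω s : F) (X Z N : R2) (c : F) : Prop where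
  md : MD ω s X Z N
  hX : ¬ IsSc X
  hZ : ¬ IsSc Z
  xc : X * X = c • 1
  zc : Z * Z = c • 1
  tx : X.trace = 0
  tz : Z.trace = 0
  dx : X.det = -c
  dz : Z.det = -c
  hK : Z * X - X * Z ≠ 0

theorem MD.nc (h : MD ω s X Z N) (hK : Z * X ≠ X * Z) : ∃ c, NC ω s X Z N c := by
  have hX : ¬ IsSc X := fun h0 => hK (h0.comm Z).symm
  have hZ : ¬ IsSc Z := fun h0 => hK (h0.comm X)
  have hY : IsSc (X * X) := by
    by_contra hY
    obtain ⟨u, v, h1⟩ := exists_uv hY (x := X) (by rw [mul_assoc])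
    obtain ⟨u', v', h2⟩ := exists_uv hY (x := Z) (by rw [h.xx, mul_assoc])
    apply hK
    generalize X * X = Y at h1 h2
    rw [h1, h2]
    simp only [add_mul, mul_add, smul_mul_assoc, mul_smul_comm, one_mul, mul_one]
    module
  obtain ⟨c, hc⟩ := hY
  have hc' : Z * Z = c • 1 := by rw [← h.xx, hc]
  obtain ⟨h1, h2⟩ := traceless hX hc
  obtain ⟨h3, h4⟩ := traceless hZ hc'
  exact ⟨c, h, hX, hZ, hc, hc', h1, h3, h2, h4, sub_ne_zero.2 hK⟩

namespace NC

variable {c : F} (h : NC ω s X Z N c)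
include h

theorem zx : Z * X = (-2 : F) • 1 - X * Z := by
  rw [← h.md.xz]
  abel

theorem K_eq : Z * X - X * Z = (-2 : F) • (1 + X * Z) := by
  rw [h.zx]
  module

theorem KK : (Z * X - X * Z) * (Z * X - X * Z) = (4 * (1 - c * c)) • 1 := by
  have h1 : (X * Z) * (X * Z) = (-2 : F) • (X * Z) - (c * c) • 1 := by
    calc (X * Z) * (X * Z) = X * (Z * X) * Z := by simp only [mul_assoc]
      _ = (-2 : F) • (X * Z) - (X * X) * (Z * Z) := by
        rw [h.zx, mul_sub, sub_mul, mul_smul_comm, mul_one, smul_mul_assoc]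
        simp only [mul_assoc]
      _ = (-2 : F) • (X * Z) - (c * c) • 1 := by rw [h.xc, h.zc, smul_mul_smul_comm, one_mul]
  rw [h.K_eq, smul_mul_smul_comm, add_mul, one_mul, mul_add, mul_one, h1]
  module

theorem XK : X * (Z * X - X * Z) = -((Z * X - X * Z) * X) := by
  have e1 : X * (X * Z) = c • Z := by rw [← mul_assoc, h.xc, smul_mul_assoc, one_mul]
  have e2 : Z * X * X = c • Z := by rw [mul_assoc, h.xc, mul_smul_comm, mul_one]
  rw [mul_sub, sub_mul, e1, e2, mul_assoc]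
  abel

theorem ZK : Z * (Z * X - X * Z) = -((Z * X - X * Z) * Z) := by
  have e1 : Z * (Z * X) = c • X := by rw [← mul_assoc, h.zc, smul_mul_assoc, one_mul]
  have e2 : X * Z * Z = c • X := by rw [mul_assoc, h.zc, mul_smul_comm, mul_one]
  rw [mul_sub, sub_mul, e1, e2, mul_assoc]
  abel

theorem trK : (Z * X - X * Z).trace = 0 := by
  rw [Matrix.trace_sub, Matrix.trace_mul_comm, sub_self]

theorem K_not_sc : ¬ IsSc (Z * X - X * Z) := by
  rintro ⟨k, hk⟩
  have h1 := h.trK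
  rw [hk, Matrix.trace_smul, Matrix.trace_one, Fintype.card_fin, smul_eq_mul] at h1
  have h2 : k * 2 = 0 := by exact_mod_cast h1
  have h3 := (mul_eq_zero.1 h2).resolve_right h.md.ne
  apply h.hK
  rw [hk, h3, zero_smul]

/-- `N` scalar -/
theorem cev_of_sc (hN : IsSc N) : Cev X Z N := by
  obtain ⟨ν, hν⟩ := hN
  have hνν : ν * ν = 1 := by
    have h1 := h.md.nn
    rw [hν, smul_mul_smul_comm, one_mul] at h1
    simpa using congrFun (congrFun h1 0) 0
  have e0 := h.md.e0 _ rfl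
  obtain ⟨K, hK⟩ : ∃ K, K = Z * X - X * Z := ⟨_, rfl⟩
  have hT : (-2 : F) • (s • (X * X) + X * N * Z - Z * N * X) = (-2 * s * c) • 1 + (2 * ν) • K := by
    rw [hν, h.xc, hK]
    simp only [mul_smul_comm, smul_mul_assoc, mul_one]
    module
  have hKK := h.KK
  rw [← hK] at hKK
  rw [hT] at e0
  have h1 : (2 * s * ν * (1 - 4 * c)) • K + (4 * (s * s) * (c * c) + 16 * (ν * ν) * (1 - c * c) -
      2 * (s * s) * c + 3) • (1 : R2) = 0 := by
    rw [← e0]
    simp only [add_mul, mul_add, smul_mul_assoc, mul_smul_comm, one_mul, mul_one, hKK]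
    module
  obtain ⟨h2, -⟩ := coeff_zero (hK ▸ h.K_not_sc) h1
  have hν0 : ν ≠ 0 := by
    rintro rfl
    simp at hνν
  have h3 : 1 - 4 * c = 0 := by
    rcases mul_eq_zero.1 h2 with h4 | h4
    · exact absurd h4 (mul_ne_zero (mul_ne_zero h.md.ne h.md.sne) hν0)
    · exact h4
  have hc1 : c = -1 := by linear_combination h3 + c * h.md.h5
  have hK0 : K * K = 0 := by
    rw [hKK, hc1, show (4 * (1 - -1 * -1) : F) = 0 by ring, zero_smul]
  obtain ⟨v, hv, hv'⟩ := ker_line hK0 (hK ▸ h.hK)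
  refine ⟨v, hv, hv' X (hK ▸ h.XK), hv' Z (hK ▸ h.ZK), ν, ?_⟩
  rw [hν, Matrix.smul_mulVec, Matrix.one_mulVec]

theorem trN (hN : ¬ IsSc N) : N.trace = 0 ∧ N.det = -1 :=
  traceless hN (c := 1) (by rw [h.md.nn, one_smul])

/-- `τ = tr(X N Z) = -s (1 + c)`, `T₀ = 2 s` -/
theorem tau (hN : ¬ IsSc N) : X * N * Z - Z * N * X = (-s * (1 + c)) • 1 ∧ (X * N * Z).trace = -s * (1 + c) := by
  have h1 := anti3 h.tx (h.trN hN).1 h.tz
  obtain ⟨τ, hτ⟩ : ∃ τ, τ = (X * N * Z).trace := ⟨_, rfl⟩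
  rw [← hτ] at h1
  have e0 := h.md.e0 _ rfl
  have hT : (-2 : F) • (s • (X * X) + X * N * Z - Z * N * X) = (-2 * (s * c + τ)) • 1 := by
    rw [add_sub_assoc, h1, h.xc]
    module
  rw [hT] at e0
  have h2 : ((-2 * (s * c + τ)) * (-2 * (s * c + τ)) + s * (-2 * (s * c + τ)) + 3) • (1 : R2) = 0 := by
    rw [← e0, smul_mul_smul_comm, one_mul]
    module
  have h3 : (-2 * (s * c + τ)) * (-2 * (s * c + τ)) + s * (-2 * (s * c + τ)) + 3 = 0 := by
    simpa using congrFun (congrFun h2 0) 0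
  have s2 := h.md.s2
  have h5 := h.md.h5
  have h4 : (τ + s * (1 + c)) ^ 2 = 0 := by
    linear_combination (-1 : F) * h3 + (τ ^ 2 + 2 * c * s * τ + c ^ 2 * s ^ 2) * h5 + s2 + h5
  have h6 : τ = -s * (1 + c) := by
    have := pow_eq_zero_iff two_ne_zero |>.1 h4
    linear_combination this
  exact ⟨by rw [h1, h6], by rw [← hτ, h6]⟩

theorem T0 (hN : ¬ IsSc N) : (2 * s) • (1 : R2) = (-2 : F) • (s • (X * X) + X * N * Z - Z * N * X) := by
  rw [add_sub_assoc, (h.tau hN).1, h.xc]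
  have h5 := h.md.h5
  have : (-2 : F) • (s • c • (1 : R2) + (-s * (1 + c)) • 1) = (-2 * (s * c - s * (1 + c))) • 1 := by module
  rw [this]
  congr 1
  ring

theorem T2T1 (hN : ¬ IsSc N) : ∀ T₁ T₂ : R2,
    T₁ = (-2 : F) • (s • (X * X) + ω • (X * N * Z) - ω ^ 2 • (Z * N * X)) →
    T₂ = (-2 : F) • (s • (X * X) + ω ^ 2 • (X * N * Z) - ω • (Z * N * X)) → T₂ * T₁ = 0 := by
  intro T₁ T₂ h1 h2
  have s2 := h.md.s2
  have h5 := h.md.h5
  have hT := h.T0 hN
  have e0 := h.md.e0' _ _ hT rfl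
  have e1 := h.md.e1 _ _ _ hT rfl rfl
  have e3 := h.md.e3 _ _ _ rfl h1 h2
  obtain ⟨P₀, hP₀⟩ : ∃ P₀, P₀ = s • (Z * X - X * Z) + (2 : F) • (X * N * X) + (2 : F) • (Z * N * Z) := ⟨_, rfl⟩
  obtain ⟨P₁, hP₁⟩ : ∃ P₁, P₁ = s • (Z * X - X * Z) + (2 * ω ^ 2) • (X * N * X) + (2 * ω) • (Z * N * Z) := ⟨_, rfl⟩
  rw [← hP₀] at e0 e1
  rw [← hP₁] at e1 e3
  have h6 : N * P₁ * N = (2 : F) • P₀ := by
    rw [e1, mul_smul_comm, mul_one, smul_smul, show s * (2 * s) = 4 by linear_combination 2 * s2, ← add_smul]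
    congr 1
    linear_combination h5
  have h7 : P₁ = (2 : F) • (N * P₀ * N) := by
    calc P₁ = (N * N) * P₁ * (N * N) := by rw [h.md.nn, one_mul, mul_one]
      _ = N * (N * P₁ * N) * N := by simp only [mul_assoc]
      _ = (2 : F) • (N * P₀ * N) := by rw [h6, mul_smul_comm, smul_mul_assoc]
  have h8 : P₀ * P₀ = 1 := by
    rw [smul_mul_smul_comm, one_mul, show (2 * s) * (2 * s) = 8 by linear_combination 4 * s2] at e0
    have : P₀ * P₀ = (P₀ * P₀ + (8 : F) • (1 : R2)) - (8 : F) • 1 := by abel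
    rw [this, e0]
    have h9 : (-1 : R2) - (8 : F) • 1 = 1 - (5 : F) • 1 - (5 : F) • 1 := by module
    rw [h9, h5, zero_smul, sub_zero, sub_zero]
  have h9 : P₁ * P₁ = (4 : F) • 1 := by
    rw [h7, smul_mul_smul_comm]
    have : N * P₀ * N * (N * P₀ * N) = 1 := by
      calc N * P₀ * N * (N * P₀ * N) = N * P₀ * (N * N) * P₀ * N := by simp only [mul_assoc]
        _ = N * (P₀ * P₀) * N := by rw [h.md.nn, mul_one]; simp only [mul_assoc]
        _ = 1 := by rw [h8, mul_one, h.md.nn]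
    rw [this]
    congr 1
    norm_num
  rw [h9] at e3
  have h10 : T₂ * T₁ = ((4 : F) • (1 : R2) + T₂ * T₁) - (4 : F) • 1 := by abel
  rw [h10, e3]
  have h11 : (-1 : R2) - (4 : F) • 1 = -((5 : F) • 1) := by module
  rw [h11, h5, zero_smul, neg_zero]

/-- `c = -1` or `c = 2` -/
theorem c_cases (hN : ¬ IsSc N) : c = -1 ∨ c = 2 := by
  have h0 := h.T2T1 hN _ _ rfl rfl
  obtain ⟨h1, h2⟩ := h.tau hN
  obtain ⟨L, hL⟩ : ∃ L, L = X * N * Z := ⟨_, rfl⟩
  obtain ⟨τ, hτ⟩ : ∃ τ, τ = -s * (1 + c) := ⟨_, rfl⟩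
  have hdet : L.det = -(c * c) := by
    rw [hL, Matrix.det_mul, Matrix.det_mul, h.dx, h.dz, (h.trN hN).2]
    ring
  rw [← hL, ← hτ] at h2
  rw [← hL, ← hτ] at h1
  have h3 : Z * N * X = L - τ • 1 := by rw [← h1]; abel
  have hLL : L * L = τ • L + (c * c) • 1 := by
    rw [ch2 L, h2, hdet]
    module
  rw [← hL, h3, h.xc] at h0
  have hs := h.md.hs
  have hω := h.md.hω
  have h4 : ((-2 : F) • (s • c • (1 : R2) + ω ^ 2 • L - ω • (L - τ • 1))) *
      ((-2 : F) • (s • c • (1 : R2) + ω • L - ω ^ 2 • (L - τ • 1))) =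
      (4 * ((s * c + ω * τ) * (s * c + ω ^ 2 * τ) - (ω - ω ^ 2) * (ω - ω ^ 2) * (c * c))) • 1 +
        (4 * ((ω ^ 2 - ω) * (s * c + ω ^ 2 * τ) + (ω - ω ^ 2) * (s * c + ω * τ) -
          (ω - ω ^ 2) * (ω - ω ^ 2) * τ)) • L := by
    have : ((-2 : F) • (s • c • (1 : R2) + ω ^ 2 • L - ω • (L - τ • 1))) *
      ((-2 : F) • (s • c • (1 : R2) + ω • L - ω ^ 2 • (L - τ • 1))) =
      (4 * (s * c + ω * τ) * (s * c + ω ^ 2 * τ)) • 1 + (4 * ((ω ^ 2 - ω) * (s * c + ω ^ 2 * τ) +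
        (ω - ω ^ 2) * (s * c + ω * τ))) • L + (4 * ((ω ^ 2 - ω) * (ω - ω ^ 2))) • (L * L) := by
      simp only [add_mul, mul_add, sub_mul, mul_sub, smul_mul_assoc, mul_smul_comm, one_mul, mul_one, smul_add, smul_sub]
      module
    rw [this, hLL]
    module
  rw [h4] at h0
  have h5 : (4 * ((ω ^ 2 - ω) * (s * c + ω ^ 2 * τ) + (ω - ω ^ 2) * (s * c + ω * τ) -
          (ω - ω ^ 2) * (ω - ω ^ 2) * τ)) = 0 := by ring
  rw [h5, zero_smul, add_zero] at h0
  have h6 : 4 * ((s * c + ω * τ) * (s * c + ω ^ 2 * τ) - (ω - ω ^ 2) * (ω - ω ^ 2) * (c * c)) = 0 := by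
    simpa using congrFun (congrFun h0 0) 0
  have h7 : s * s * ((1 + c) * (1 + 2 * c)) = 0 := by
    rw [hτ, hs] at h6
    rw [hs]
    linear_combination 4 * h6 + ((-64) * ω ^ 3 * c ^ 2 + (-128) * ω ^ 3 * c + (-64) * ω ^ 3 + 80 * ω ^ 2 * c ^ 2 +
      64 * ω ^ 2 * c + 64 * ω * c ^ 2 + 160 * ω * c + 48 * ω + (-104) * c ^ 2 + (-132) * c + (-44)) * hω +
      (18 * c ^ 2 + 27 * c + 9) * h.md.h5
  have hss : s * s ≠ 0 := mul_ne_zero h.md.sne h.md.sne
  rcases mul_eq_zero.1 ((mul_eq_zero.1 h7).resolve_left hss) with h8 | h8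
  · left
    linear_combination h8
  · right
    linear_combination 3 * h8 - (c + 1) * h.md.h5

/-- **`c = 2`** unless there is a common eigenvector -/
theorem cev_of_neg (hN : ¬ IsSc N) (hc : c = -1) : Cev X Z N := by
  obtain ⟨h1, h2⟩ := h.tau hN
  rw [hc, add_neg_cancel, mul_zero] at h1 h2
  rw [zero_smul] at h1
  obtain ⟨K, hK⟩ : ∃ K, K = Z * X - X * Z := ⟨_, rfl⟩
  have hK0 : K * K = 0 := by
    rw [hK, h.KK, hc, show (4 * (1 - -1 * -1) : F) = 0 by ring, zero_smul]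
  obtain ⟨v, hv, hv'⟩ := ker_line hK0 (hK ▸ h.hK)
  refine ⟨v, hv, hv' X (hK ▸ h.XK), hv' Z (hK ▸ h.ZK), hv' N ?_⟩
  have h3 := ch2' N K
  have h4 : (N * K).trace = 0 := by
    have e1 : (N * (Z * X)).trace = (X * N * Z).trace := by rw [← mul_assoc, Matrix.trace_mul_comm, ← mul_assoc]
    have e2 : (N * (X * Z)).trace = (Z * N * X).trace := by rw [← mul_assoc, Matrix.trace_mul_comm, ← mul_assoc]
    rw [hK, mul_sub, Matrix.trace_sub, e1, e2, ← Matrix.trace_sub, h1, Matrix.trace_zero]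
  rw [(h.trN hN).1, hK, h.trK, ← hK, h4] at h3
  simp only [zero_smul, zero_add, mul_zero, sub_zero] at h3
  exact eq_neg_of_add_eq_zero_left h3

end NC

/-- the standard operators -/
def Xo : R2 := !![0, 1; 2, 0]
def Zo (ω : F) : R2 := !![0, ω; 2 * ω ^ 2, 0]
def No (ω : F) : R2 := !![1, 2 * ω ^ 2; 0, -1]

/-- a basis of eigenvectors of `K` -/
theorem NC.exists_S {c : F} (h : NC ω s X Z N c) (hc : c = 2) : ∃ S : GL (Fin 2) F,
    X * (S : R2) = (S : R2) * Xo ∧ Z * (S : R2) = (S : R2) * Zo ω := by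
  have s2 := h.md.s2
  have h5 := h.md.h5
  have h2 := h.md.ne
  subst hc
  obtain ⟨K, hK⟩ : ∃ K, K = Z * X - X * Z := ⟨_, rfl⟩
  have hKK : K * K = (8 : F) • 1 := by
    rw [hK, h.KK]
    congr 1
    linear_combination -4 * h5
  have hXK := h.XK
  rw [← hK] at hXK
  obtain ⟨w, hw⟩ : ∃ w, (K + (2 * s) • 1) *ᵥ w ≠ 0 := by
    by_contra hcon
    push Not at hcon
    have h0 := eq_zero_of_mulVec hcon
    apply h.K_not_sc
    refine ⟨-(2 * s), ?_⟩
    rw [← hK, neg_smul]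
    exact eq_neg_of_add_eq_zero_left h0
  obtain ⟨v, hv⟩ : ∃ v, v = (K + (2 * s) • 1) *ᵥ w := ⟨_, rfl⟩
  rw [← hv] at hw
  have hKv : K *ᵥ v = (2 * s) • v := by
    rw [hv, Matrix.mulVec_mulVec, mul_add, hKK, mul_smul_comm, mul_one]
    have : (8 : F) • (1 : R2) + (2 * s) • K = (2 * s) • (K + (2 * s) • 1) := by
      rw [smul_add, smul_smul, show (2 * s) * (2 * s) = 8 by linear_combination 4 * s2]
      abel
    rw [this, Matrix.smul_mulVec]
  have hKX : K *ᵥ (X *ᵥ v) = (-(2 * s)) • (X *ᵥ v) := by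
    rw [Matrix.mulVec_mulVec]
    have : K * X = -(X * K) := by rw [hXK, neg_neg]
    rw [this, Matrix.neg_mulVec, ← Matrix.mulVec_mulVec, hKv, Matrix.mulVec_smul, neg_smul]
  have hXX : X *ᵥ (X *ᵥ v) = (2 : F) • v := by
    rw [Matrix.mulVec_mulVec, h.xc, Matrix.smul_mulVec, Matrix.one_mulVec]
  -- `Z X = 3 (K - 2)`
  have hZX : Z * X = (3 : F) • (K - (2 : F) • 1) := by
    have h1 := h.zx
    have h3 : (2 : F) • (Z * X) = K - (2 : F) • 1 := by
      rw [hK, two_smul]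
      nth_rewrite 2 [h1]
      module
    rw [← h3, smul_smul, show (3 * 2 : F) = 1 by linear_combination h5, one_smul]
  have hZXv : Z *ᵥ (X *ᵥ v) = (6 * (s - 1)) • v := by
    rw [Matrix.mulVec_mulVec, hZX, Matrix.smul_mulVec, Matrix.sub_mulVec, hKv, Matrix.smul_mulVec, Matrix.one_mulVec]
    module
  have hZv : Z *ᵥ v = (2 * (s + 1)) • (X *ᵥ v) := by
    have h1 : (2 : F) • (Z *ᵥ v) = Z *ᵥ (X *ᵥ (X *ᵥ v)) := by rw [hXX, Matrix.mulVec_smul]
    have h3 : Z *ᵥ (X *ᵥ (X *ᵥ v)) = (-(6 * (s + 1))) • (X *ᵥ v) := by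
      rw [Matrix.mulVec_mulVec (X *ᵥ v) Z X, hZX, Matrix.smul_mulVec, Matrix.sub_mulVec, hKX, Matrix.smul_mulVec,
        Matrix.one_mulVec]
      module
    rw [h3] at h1
    have h4 : (2 : F) • (Z *ᵥ v) = (2 : F) • ((2 * (s + 1)) • (X *ᵥ v)) := by
      rw [h1, smul_smul]
      congr 1
      linear_combination (-2 * (s + 1)) * h5
    exact smul_right_injective _ h2 h4
  let S₀ : R2 := Matrix.of fun i j => if j = 0 then v i else ((3 : F) • (X *ᵥ v)) i
  have c0 : ∀ i, S₀ i 0 = v i := fun i => rfl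
  have c1 : ∀ i, S₀ i 1 = ((3 : F) • (X *ᵥ v)) i := fun i => rfl
  have hXv0 : X *ᵥ v ≠ 0 := by
    intro h0
    rw [h0, Matrix.mulVec_zero] at hXX
    exact hw ((smul_eq_zero.1 hXX.symm).resolve_left h2)
  have hdet : S₀.det ≠ 0 := by
    intro hdet
    rw [← Matrix.exists_mulVec_eq_zero_iff] at hdet
    obtain ⟨y, hy, hy0⟩ := hdet
    have e1 : y 0 • v + (y 1 * 3) • (X *ᵥ v) = 0 := by
      funext i
      have := congrFun hy0 i
      rw [Matrix.mulVec, dotProduct, Fin.sum_univ_two, c0, c1, Pi.smul_apply, smul_eq_mul] at this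
      rw [Pi.add_apply, Pi.smul_apply, Pi.smul_apply, smul_eq_mul, smul_eq_mul]
      rw [Pi.zero_apply] at this ⊢
      linear_combination this
    have e2 := congrArg (fun z => K *ᵥ z) e1
    simp only [Matrix.mulVec_add, Matrix.mulVec_smul, hKv, hKX, Matrix.mulVec_zero] at e2
    have e3 : (2 * (2 * s) * y 0) • v = 0 := by
      have : (2 * (2 * s) * y 0) • v = (y 0 • (2 * s) • v + (y 1 * 3) • (-(2 * s)) • X *ᵥ v) +
        (2 * s) • (y 0 • v + (y 1 * 3) • (X *ᵥ v)) := by module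
      rw [this, e2, e1, smul_zero, add_zero]
    have e4 : y 0 = 0 := by
      have h6 := (smul_eq_zero.1 e3).resolve_right hw
      exact (mul_eq_zero.1 h6).resolve_left (mul_ne_zero h2 (mul_ne_zero h2 h.md.sne))
    rw [e4, zero_smul, zero_add] at e1
    have e5 := (smul_eq_zero.1 e1).resolve_right hXv0
    have e6 : y 1 = 0 := (mul_eq_zero.1 e5).resolve_right h.md.ne3
    apply hy
    funext i
    fin_cases i
    · exact e4
    · exact e6
  refine ⟨Matrix.GeneralLinearGroup.mkOfDetNeZero S₀ hdet, ?_, ?_⟩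
  · show X * S₀ = S₀ * Xo
    ext i j
    have key : ∀ j, (X * S₀) i j = (X *ᵥ fun i => S₀ i j) i := fun j => rfl
    rw [key, Matrix.mul_apply, Fin.sum_univ_two, c0, c1]
    fin_cases j
    · show (X *ᵥ v) i = _
      rw [Pi.smul_apply]
      generalize X *ᵥ v = z
      simp [Xo]
      linear_combination (-(z i)) * h5
    · show (X *ᵥ ((3 : F) • (X *ᵥ v))) i = _
      rw [Matrix.mulVec_smul, hXX, Pi.smul_apply, Pi.smul_apply]
      simp [Xo]
      linear_combination (v i) * h5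
  · show Z * S₀ = S₀ * Zo ω
    ext i j
    have key : ∀ j, (Z * S₀) i j = (Z *ᵥ fun i => S₀ i j) i := fun j => rfl
    rw [key, Matrix.mul_apply, Fin.sum_univ_two, c0, c1]
    have hs := h.md.hs
    have hω := h.md.hω
    fin_cases j
    · show (Z *ᵥ v) i = _
      rw [hZv, Pi.smul_apply, Pi.smul_apply]
      generalize X *ᵥ v = z
      simp [Zo, hs]
      linear_combination (-6 * z i) * hω + (2 * (ω + 1) * z i) * h5
    · show (Z *ᵥ ((3 : F) • (X *ᵥ v))) i = _
      rw [Matrix.mulVec_smul, hZXv, Pi.smul_apply, Pi.smul_apply]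
      simp [Zo, hs]
      linear_combination (7 * ω * v i) * h5

end Cfsg.Agent.H930.A7s
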