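import Cfsg.Agent.H930.A7s.Two

/-!
# `6.A₇`, `n = 12`, `p = 5`: the normal form of `X, Z, N` (helper930)
-/

set_option autoImplicit false
set_option linter.unusedSectionVars false

namespace Cfsg.Agent.H930.A7s

open Matrix
open Cfsg.Agent.H890.A7 (ch2 ch2' IsSc coeff_zero exists_uv)

variable {F : Type*} [Field F]

local notation "R2" => Matrix (Fin 2) (Fin 2) F

/-- conjugation by `S` -/
def cj (S : GL (Fin 2) F) : Matrix (Fin 2) (Fin 2) F →ₐ[F] Matrix (Fin 2) (Fin 2) F where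
  toFun A := ((S⁻¹ : GL (Fin 2) F) : R2) * A * (S : R2)
  map_one' := by rw [mul_one, ← Units.val_mul, inv_mul_cancel, Units.val_one]
  map_mul' A B := by
    have h : (S : R2) * ((S⁻¹ : GL (Fin 2) F) : R2) = 1 := by rw [← Units.val_mul, mul_inv_cancel, Units.val_one]
    calc ((S⁻¹ : GL (Fin 2) F) : R2) * (A * B) * (S : R2) =
        ((S⁻¹ : GL (Fin 2) F) : R2) * A * 1 * B * (S : R2) := by simp only [mul_assoc, one_mul]
      _ = _ := by rw [← h]; simp only [mul_assoc]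
  map_zero' := by rw [mul_zero, zero_mul]
  map_add' A B := by rw [mul_add, add_mul]
  commutes' c := by
    rw [Algebra.algebraMap_eq_smul_one, mul_smul_comm, mul_one, smul_mul_assoc, ← Units.val_mul, inv_mul_cancel,
      Units.val_one]

theorem cj_eq {S : GL (Fin 2) F} {A B : R2} (h : A * (S : R2) = (S : R2) * B) : cj S A = B := by
  show ((S⁻¹ : GL (Fin 2) F) : R2) * A * (S : R2) = B
  rw [mul_assoc, h, ← mul_assoc, ← Units.val_mul, inv_mul_cancel, Units.val_one, one_mul]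

theorem cj_spec (S : GL (Fin 2) F) (A : R2) : A * (S : R2) = (S : R2) * cj S A := by
  show A * (S : R2) = (S : R2) * (((S⁻¹ : GL (Fin 2) F) : R2) * A * (S : R2))
  rw [← mul_assoc, ← mul_assoc, ← Units.val_mul, mul_inv_cancel, Units.val_one, one_mul]

variable {ω s : F}

theorem MD.final {n₁ n₂ n₃ : F} (h : MD ω s Xo (Zo ω) !![n₁, n₂; n₃, -n₁])
    (hN : ¬ IsSc (!![n₁, n₂; n₃, -n₁] : R2)) : n₁ = 1 ∧ n₃ = 0 ∧ n₂ ^ 2 = -ω := by
  have h5 := h.h5
  have hω := h.hω
  have hs := h.hs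
  have s2 := h.s2
  have hω3 : ω ^ 3 = 1 := by linear_combination (ω - 1) * hω
  have hω0 : ω ≠ 0 := by
    rintro rfl
    norm_num at hω
  obtain ⟨c, hc⟩ := h.nc (by
    intro h0
    have h1 := congrFun (congrFun h0 0) 0
    simp [Xo, Zo] at h1
    apply h.sne
    have h3 := h.ne
    have : (2 : F) * s = 0 := by
      rw [hs]
      linear_combination h1 + 2 * hω
    exact (mul_eq_zero.1 this).resolve_left h3)
  have hc2 : c = 2 := by
    have h0 := congrFun (congrFun hc.xc 0) 0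
    simp [Xo] at h0
    exact h0.symm
  subst hc2
  have htau := (hc.tau hN).1
  have hT0 := hc.T0 hN
  have e1 := h.e1 _ _ _ hT0 rfl rfl
  have nn := congrFun (congrFun h.nn 0) 0
  simp only [Matrix.mul_apply, Fin.sum_univ_two] at nn
  simp at nn
  have h1 : n₁ = 1 := by
    have h0 := congrFun (congrFun htau 0) 0
    simp [Xo, Zo] at h0
    have h6 : s * (2 * n₁ + 3) = 0 := by
      rw [hs] at h0 ⊢
      linear_combination h0 + 2 * n₁ * hω
    have h7 := (mul_eq_zero.1 h6).resolve_left h.sne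
    linear_combination 3 * h7 - (n₁ + 2) * h5
  subst h1
  have q00 := congrFun (congrFun e1 0) 0
  have q01 := congrFun (congrFun e1 0) 1
  have q10 := congrFun (congrFun e1 1) 0
  simp [Xo, Zo] at q00 q01 q10
  have hne := h.ne
  clear hT0 htau hc hN h e1
  have hn : n₂ * n₃ = 0 := by linear_combination nn
  rcases mul_eq_zero.1 hn with h6 | h6
  · exfalso
    subst h6
    have h8 : ω * n₃ = 0 := by grind
    have h9 := (mul_eq_zero.1 h8).resolve_left hω0
    subst h9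
    grind
  · subst h6
    refine ⟨rfl, rfl, ?_⟩
    grind

/-- **The normal form.** -/
theorem MD.normal {X Z N : R2} (h : MD ω s X Z N) (hirr : ¬ Cev X Z N) : ∃ (S : GL (Fin 2) F) (ε : F), (ε = 1 ∨ ε = -1) ∧
    X * (S : R2) = (S : R2) * (ε • Xo) ∧ Z * (S : R2) = (S : R2) * (ε • Zo ω) ∧ N * (S : R2) = (S : R2) * No ω := by
  have hK : Z * X ≠ X * Z := fun h0 => hirr (h.cev_of_comm h0)
  obtain ⟨c, hc⟩ := h.nc hK
  have hN : ¬ IsSc N := fun h0 => hirr (hc.cev_of_sc h0)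
  have hc2 : c = 2 := (hc.c_cases hN).resolve_left fun h0 => hirr (hc.cev_of_neg hN h0)
  obtain ⟨S, hX, hZ⟩ := hc.exists_S hc2
  have h1 := h.map (cj S)
  rw [cj_eq hX, cj_eq hZ] at h1
  obtain ⟨N', hN'⟩ : ∃ N', N' = cj S N := ⟨_, rfl⟩
  have hNS : N * (S : R2) = (S : R2) * N' := by rw [hN']; exact cj_spec S N
  rw [← hN'] at h1
  have hN's : ¬ IsSc N' := by
    rintro ⟨d, hd⟩
    apply hN
    refine ⟨d, ?_⟩
    rw [hd, mul_smul_comm, mul_one] at hNS
    have : N = N * (S : R2) * ((S⁻¹ : GL (Fin 2) F) : R2) := by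
      rw [mul_assoc, ← Units.val_mul, mul_inv_cancel, Units.val_one, mul_one]
    rw [this, hNS, smul_mul_assoc, ← Units.val_mul, mul_inv_cancel, Units.val_one]
  have htr := (traceless hN's (c := 1) (by rw [h1.nn, one_smul])).1
  obtain ⟨n₁, n₂, n₃, hNe⟩ : ∃ n₁ n₂ n₃ : F, N' = !![n₁, n₂; n₃, -n₁] := by
    refine ⟨N' 0 0, N' 0 1, N' 1 0, ?_⟩
    rw [Matrix.trace_fin_two] at htr
    have h3 : N' 1 1 = -N' 0 0 := eq_neg_of_add_eq_zero_right htr
    ext i j
    fin_cases i <;> fin_cases j <;> simp [h3]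
  rw [hNe] at h1 hN's hNS
  obtain ⟨e1, e2, e3⟩ := h1.final hN's
  subst e1
  subst e2
  have hω := h.hω
  have h5 := h.h5
  have h4 : (n₂ - 2 * ω ^ 2) * (n₂ + 2 * ω ^ 2) = 0 := by
    clear h1 hN's hNe hNS hN' htr hZ hX hc hN hK hirr h
    grind
  rcases mul_eq_zero.1 h4 with h6 | h6
  · have h7 : n₂ = 2 * ω ^ 2 := sub_eq_zero.1 h6
    refine ⟨S, 1, Or.inl rfl, by rw [one_smul]; exact hX, by rw [one_smul]; exact hZ, ?_⟩
    rw [hNS, h7]
    rfl
  · have h7 : n₂ = -(2 * ω ^ 2) := eq_neg_of_add_eq_zero_left h6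
    obtain ⟨D, hD⟩ : ∃ D : GL (Fin 2) F, (D : R2) = !![1, 0; 0, -1] :=
      ⟨Matrix.GeneralLinearGroup.mkOfDetNeZero !![1, 0; 0, -1] (by rw [Matrix.det_fin_two_of]; norm_num), rfl⟩
    refine ⟨S * D, -1, Or.inr rfl, ?_, ?_, ?_⟩
    · rw [Units.val_mul, ← mul_assoc, hX, mul_assoc, mul_assoc, hD]
      congr 1
      ext i j
      fin_cases i <;> fin_cases j <;> simp [Xo]
    · rw [Units.val_mul, ← mul_assoc, hZ, mul_assoc, mul_assoc, hD]
      congr 1
      ext i j
      fin_cases i <;> fin_cases j <;> simp [Zo]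
    · rw [Units.val_mul, ← mul_assoc, hNS, mul_assoc, mul_assoc, hD, h7]
      congr 1
      ext i j
      fin_cases i <;> fin_cases j <;> simp [No]

end Cfsg.Agent.H930.A7s
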